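import Cfsg.Agent.H122.Ore.ETwo
import Cfsg.Agent.H267.Ore.TEight
import Cfsg.Agent.H78.Pw.Base

/-!
# `E₈(2)`: products of two elements of order prime to `n`, `85` prime to `n` (helper267; S2465)

Block `A₇`, elements of order 85 of `SL₈(2)`.
-/

set_option autoImplicit false
set_option linter.unusedSectionVars false

namespace Cfsg.Agent.H267.Ore.EEight

open CoxeterSystem Cfsg.Agent.ChevalleyStructure.CoxeterGeom Cfsg.Agent.Tits.Roots Cfsg.Agent.Tits.Core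
  Cfsg.Agent.Nodes.Reps Cfsg.Agent.Nodes.BNOf Cfsg.Agent.Nodes.RGDLib Cfsg.Agent.Nodes.Bruhat
  Cfsg.Agent.Nodes.OppDec Cfsg.Agent.Nodes.LeviDec Cfsg.Agent.Nodes.KindChev Cfsg.Agent.Nodes.ChevCls
  Cfsg.Agent.OddHalf.NI.ModelChev Cfsg.Agent.Nodes.StabComb
  Cfsg.Agent.H162.GaussDec Cfsg.Agent.H162.GaussLevi Cfsg.Agent.H162.GaussSL Cfsg.Agent.H162.GaussMain
  Cfsg.Agent.H162.GaussExc
  Cfsg.Agent.H928.Ore.Frame Cfsg.Agent.H777.Ore Cfsg.Agent.H85.Ore Cfsg.Agent.H267.Ore.TEight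
  Cfsg.Agent.H122.Ore.Blk
open Cfsg.Lie Cfsg.Agent.ChevalleyStructure Cfsg.Agent.ChevalleyStructure.Elts
  Cfsg.Agent.ChevalleyStructure.RootVec Cfsg.Agent.ChevalleyStructure.NPerm
  Cfsg.Agent.ChevalleyStructure.CoxeterGeomTypes Cfsg.Agent.Nodes.RGDChev Cfsg.Agent.KFacts.RgdChevCoord

universe u

/-- the exponents of the roots outside the block -/
def ChkE : Prop := ∀ q < chevE8.nroots, (∃ k : Fin 8, k ∉ J8 ∧ vec chevE8 8 q k ≠ 0) →
  (∑ b : Fin 8, (2 : ℤ) ^ (b : ℕ) * wt chevE8 j8 q b) % 85 ≠ 0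

instance : Decidable ChkE := by
  unfold ChkE
  refine @Nat.decidableBallLT _ _ fun q _ => ?_
  infer_instance

theorem chkE : ChkE := by decide +kernel

theorem ne_one_85 {K' : Type*} [Field K'] {z : K'} (hz : orderOf z = 85) (hz0 : z ≠ 0) {q : ℕ} (hq : q < chevE8.nroots)
    (hk : ∃ k : Fin 8, k ∉ J8 ∧ vec chevE8 8 q k ≠ 0) : ∏ b : Fin 8, (z ^ (2 ^ (b : ℕ))) ^ wt chevE8 j8 q b ≠ 1 := by
  have h1 : ∀ b : Fin 8, (z ^ (2 ^ (b : ℕ))) ^ wt chevE8 j8 q b = z ^ ((2 : ℤ) ^ (b : ℕ) * wt chevE8 j8 q b) := by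
    intro b
    rw [← zpow_natCast, ← zpow_mul]
    push_cast
    rfl
  rw [Finset.prod_congr rfl fun b _ => h1 b, prod_zpow' hz0]
  intro h
  have hz' : orderOf (Units.mk0 z hz0) = 85 := by rw [← orderOf_units, Units.val_mk0, hz]
  have h3 : (Units.mk0 z hz0) ^ (∑ b : Fin 8, (2 : ℤ) ^ (b : ℕ) * wt chevE8 j8 q b) = 1 := by
    apply Units.ext
    rw [Units.val_zpow_eq_zpow_val, Units.val_mk0, h, Units.val_one]
  have h4 := orderOf_dvd_iff_zpow_eq_one.2 h3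
  rw [hz'] at h4
  exact chkE q hq hk (Int.emod_eq_zero_of_dvd (by exact_mod_cast h4))

/-- **The pairs for `E₈(2)`.** -/
theorem pair_E8_two {K : Type u} [Field K] (hK : Nat.card K = 2) (g : ↥(chevE8.group K)) :
    ∃ a b : ↥(chevE8.group K), g = a * b ∧ a ^ 85 = 1 ∧ b ^ 85 = 1 := by
  have : Finite K := Nat.finite_of_card_ne_zero (by rw [hK]; norm_num)
  have hc2 : CharP K 2 := by
    have : Fintype K := Fintype.ofFinite K
    exact charP_of_card_eq_prime (by rw [Fintype.card_eq_nat_card, hK])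
  have hp := Cfsg.Agent.Nodes.KindE.isType8
  obtain ⟨φ, hφ⟩ := exists_phi8 K
  obtain ⟨L, _, _, i, z, hz, -, hd⟩ := eig85 hK
  obtain ⟨φ', hφ'⟩ := exists_phi8 L
  have : CharP L 2 := charP_of_injective_ringHom i.injective 2
  have : Fact (Nat.Prime 2) := ⟨Nat.prime_two⟩
  have hs : ∀ _ _ : Fin 8, (((-1 : ℤ) : K)) ≠ 0 := fun _ _ => by simp
  have B : H482.Ore.Fix.Bk Cfsg.Agent.Nodes.KindE.isType8 i {k | k ∈ J8} 6 r8 j8 φ φ' (fun _ _ => ((-1 : ℤ) : K)) :=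
    { simp := ⟨r8_simple, r8_simple'⟩
      rlt := tab8.rlt
      rJ := tab8.rJ
      hφ := hφ
      hφ' := fun a b hab c => by rw [hφ' a b hab c, map_intCast]
      ss := fun a => by norm_num }
  have hz0 : z ≠ 0 := by
    rintro rfl
    have h1 : orderOf (0 : L) = 0 := by
      rw [orderOf_eq_zero_iff']
      intro m hm
      rw [zero_pow hm.ne']
      exact zero_ne_one
    rw [h1] at hz
    norm_num at hz
  have hNF : ∀ X : Matrix.SpecialLinearGroup (Fin 8) K, (X : Matrix (Fin 8) (Fin 8) K).charpoly = f85 K →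
      NF (VJ CoxeterMatrix.E₈.toCoxeterSystem hp.isCartan (XX chevE8 8 K) {k | k ∈ J8}) (φ X) ∧
        NF (VNJ CoxeterMatrix.E₈.toCoxeterSystem hp.isCartan (XX chevE8 8 K) {k | k ∈ J8}) (φ X) := by
    intro X hX
    obtain ⟨g, hg⟩ := hd _ hX
    exact H482.Ore.Fix.nf_block' Cfsg.Agent.Nodes.KindE.isType8 2 B hg (fun q hq hk => ne_one_85 hz hz0 hq hk)
  have hr := phi_mem Cfsg.Agent.Nodes.KindE.isType8 tab8 hφ
  have hU := UJ_le Cfsg.Agent.Nodes.KindE.isType8 tab8 (s := fun _ _ => ((-1 : ℤ) : K)) hs hφ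
  have hUN := UNJ_le Cfsg.Agent.Nodes.KindE.isType8 tab8 (s := fun _ _ => ((-1 : ℤ) : K)) hs hφ
  have hpow : ∀ X : Matrix.SpecialLinearGroup (Fin 8) K, (X : Matrix (Fin 8) (Fin 8) K).charpoly = f85 K →
      (φ X) ^ 85 = 1 := fun X hX => by rw [← map_pow, pow85 hK hX, map_one]
  have hne : ∃ A : Matrix.SpecialLinearGroup (Fin 8) K, A ≠ 1 := H934.MF.exists_ne 6
  have hfac : ∀ v ∈ UNJ CoxeterMatrix.E₈.toCoxeterSystem hp.isCartan (XX chevE8 8 K) {k | k ∈ J8},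
      ∀ u ∈ UJ CoxeterMatrix.E₈.toCoxeterSystem hp.isCartan (XX chevE8 8 K) {k | k ∈ J8},
      ∃ c₁ c₂, v * u = c₁ * c₂ ∧
        LP CoxeterMatrix.E₈.toCoxeterSystem hp.isCartan (TT chevE8 K) (XX chevE8 8 K) {k | k ∈ J8} c₁ c₂ ∧
        (c₁ ^ 85 = 1 ∧ c₂ ^ 85 = 1) := by
    intro v hv u hu
    obtain ⟨L', -, rfl⟩ := hUN hv
    obtain ⟨U, -, rfl⟩ := hU hu
    by_cases h1 : L' * U = 1
    · obtain ⟨A₀, hA₀⟩ := hne
      obtain ⟨X, -, -, hX, -⟩ := sl_prod85 hK A₀ hA₀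
      obtain ⟨n1, n2⟩ := hNF X hX
      exact ⟨φ X, (φ X)⁻¹, by rw [← map_mul, h1, map_one, mul_inv_cancel], ⟨hr _, inv_mem (hr _), n2, nf_inv n1⟩,
        hpow X hX, by rw [inv_pow, hpow X hX, inv_one]⟩
    · obtain ⟨X, Y, e, hX, hY⟩ := sl_prod85 hK _ h1
      exact ⟨φ X, φ Y, by rw [← map_mul, e, map_mul], ⟨hr _, hr _, (hNF X hX).2, (hNF Y hY).1⟩, hpow X hX, hpow Y hY⟩
  by_cases hg : g = 1
  · exact ⟨1, 1, by rw [hg, mul_one], one_pow _, one_pow _⟩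
  · have hG := Cfsg.Agent.S1054.result (F := K) chevE8 (by simp)
    have := hG.1
    have hW := finite_W hp CoxeterMatrix.E₈.toCoxeterSystem
    have R := rgd (K := K) hp CoxeterMatrix.E₈.toCoxeterSystem 2
    have hcore : g ∉ (RGD.B CoxeterMatrix.E₈.toCoxeterSystem hp.isCartan (TT chevE8 K) (XX chevE8 8 K)).normalCore := by
      intro h1
      have h2 := core_le_ker R (MonoidHom.id ↥(chevE8.group K)) Function.surjective_id (fun x hx => by
        rw [MonoidHom.mem_ker] at hx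
        change x = 1 at hx
        rw [hx]
        exact one_mem _) h1
      exact hg h2
    obtain ⟨c₁, c₂, x, y, ⟨h1, h2⟩, e⟩ := pair R (G1_eq_top hp _) (coord hp)
      (Cfsg.Agent.Nodes.ChevChart.irr_of Cfsg.Agent.Nodes.ChevChart.irr8)
      (Pr := fun c₁ c₂ => c₁ ^ 85 = 1 ∧ c₂ ^ 85 = 1) hfac hcore
    refine ⟨x * c₁ * x⁻¹, y * c₂ * y⁻¹, e, ?_, ?_⟩
    · rw [conj_pow, h1, mul_one, mul_inv_cancel]
    · rw [conj_pow, h2, mul_one, mul_inv_cancel]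

open Cfsg.Agent.H78.Pw

/-- **`All n` for `E₈(2)`**, `n` prime to `85`. -/
theorem all_E8_two {K : Type u} [Field K] (hK : Nat.card K = 2) {n : ℕ} (hn : Nat.Coprime 85 n) :
    All n ↥(chevE8.group K) := by
  intro g
  obtain ⟨a, b, e, ha, hb⟩ := pair_E8_two hK g
  exact ⟨a, b, e, Nat.Coprime.of_dvd_left (orderOf_dvd_of_pow_eq_one ha) hn,
    Nat.Coprime.of_dvd_left (orderOf_dvd_of_pow_eq_one hb) hn⟩

/-- **(I) for `E₈(2)`.** -/
theorem six_E8_two {K : Type u} [Field K] (hK : Nat.card K = 2) : All 6 ↥(chevE8.group K) :=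
  all_E8_two hK (by norm_num)

end Cfsg.Agent.H267.Ore.EEight
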